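import Cfsg.Agent.H395.RIM.SLFix
import Cfsg.Agent.H665.RIM.Defs
import Cfsg.Agent.H487.SchurPerfect
import Cfsg.Agent.S2086
import Cfsg.Agent.S2116
import Cfsg.Agent.S0254

/-!
# `EK p (PSL 2 F)` for `char F = p` odd (task 6184 of S4816, helper395)
-/

set_option autoImplicit false

namespace Cfsg.Agent.H395.RIM.EKPsl

open Cfsg Cfsg.Agent.H665.RIM Cfsg.Agent.H395.RIM.SLFix Matrix
open scoped commutatorElement

universe u v w

section Mult

variable {F : Type v} [Field F] [Fintype F]

theorem stem_comp {Γ : Type u} {G : Type v} {G' : Type w} [Group Γ] [Group G] [Group G'] {σ : Γ →* G}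
    (h : IsStemExtension σ) (e : G ≃* G') :
    IsStemExtension (e.toMonoidHom.comp σ) ∧ (e.toMonoidHom.comp σ).ker = σ.ker := by
  have hk : (e.toMonoidHom.comp σ).ker = σ.ker := by
    ext x
    rw [MonoidHom.mem_ker, MonoidHom.mem_ker, MonoidHom.comp_apply]
    exact map_eq_one_iff _ e.injective
  exact ⟨⟨e.surjective.comp h.1, by rw [hk]; exact h.2.1, by rw [hk]; exact h.2.2⟩, hk⟩

theorem card_dvd {n : ℕ} {Γ : Type u} [Group Γ] {G : Type v} [Group G] (h : HasCyclicSchurMultiplier G n)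
    {σ : Γ →* G} (hσ : IsStemExtension σ) : Nat.card σ.ker ∣ n := by
  obtain ⟨f, hf⟩ := Cfsg.Agent.H487.HasSchurMultiplier.exists_surj_ker h hσ
  have h1 := Subgroup.card_dvd_of_surjective f hf
  rwa [Nat.card_congr (Multiplicative.toAdd (α := ZMod n)), Nat.card_zmod] at h1

/-- the `p'`-part of the multiplier of `PSL 2 F` is at most two -/
theorem card_ker_dvd_two (p : ℕ) [hp : Fact p.Prime] [CharP F p] (h2 : p ≠ 2) (h4 : 4 ≤ Fintype.card F)
    {Γ : Type u} [Group Γ] {σ : Γ →* Matrix.ProjectiveSpecialLinearGroup (Fin 2) F} (hσ : IsStemExtension σ)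
    (hk : ¬ p ∣ Nat.card σ.ker) : Nat.card σ.ker ∣ 2 := by
  obtain ⟨n, -, hn⟩ := FiniteField.card F p
  by_cases h9 : Fintype.card F = 9
  · obtain ⟨e⟩ := S0254.result h9
    obtain ⟨h5, h6⟩ := stem_comp hσ e
    have h7 := card_dvd (S2116.result 6 (Or.inl rfl)) h5
    rw [h6] at h7
    have hp3 : p = 3 := by
      rw [h9] at hn
      have h8 : p ∣ 3 ^ 2 := by
        rw [show (3 : ℕ) ^ 2 = 9 by norm_num, hn]
        exact dvd_pow_self p n.2.ne'
      exact (Nat.prime_dvd_prime_iff_eq hp.1 Nat.prime_three).1 (hp.1.dvd_of_dvd_pow h8)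
    subst hp3
    have h8 : Nat.Coprime (Nat.card σ.ker) 3 := ((Nat.Prime.coprime_iff_not_dvd Nat.prime_three).2 hk).symm
    exact h8.dvd_of_dvd_mul_right (by simpa using h7)
  · have h44 : Fintype.card F ≠ 4 := by
      intro h
      rw [h] at hn
      have h8 : p ∣ 2 ^ 2 := by
        rw [show (2 : ℕ) ^ 2 = 4 by norm_num, hn]
        exact dvd_pow_self p n.2.ne'
      exact h2 ((Nat.prime_dvd_prime_iff_eq hp.1 Nat.prime_two).1 (hp.1.dvd_of_dvd_pow h8))
    have h5 := S2086.result (F := F) rfl 2 le_rfl (fun _ => h4) (by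
      simp only [Set.mem_insert_iff, Set.mem_singleton_iff, Prod.mk.injEq]
      omega)
    exact (card_dvd h5 hσ).trans (Nat.gcd_dvd_left _ _)

end Mult

section Main

variable {F : Type v} [Field F] [Fintype F]

omit [Fintype F] in
theorem uu_pow (x : F) (n : ℕ) : uu x ^ n = uu (n * x) := by
  induction n with
  | zero => rw [pow_zero, Nat.cast_zero, zero_mul, uu_zero]
  | succ n ih => rw [pow_succ, ih, ← uu_add]; congr 1; push_cast; ring

/-- the group of upper unipotent matrices -/
def UU (F : Type v) [Field F] : Subgroup (SpecialLinearGroup (Fin 2) F) where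
  carrier := {g | ∃ x : F, g = uu x}
  one_mem' := ⟨0, uu_zero.symm⟩
  mul_mem' := by
    rintro _ _ ⟨x, rfl⟩ ⟨y, rfl⟩
    exact ⟨x + y, (uu_add x y).symm⟩
  inv_mem' := by
    rintro _ ⟨x, rfl⟩
    exact ⟨-x, uu_neg x⟩

omit [Fintype F] in
theorem isPGroup_UU (p : ℕ) [CharP F p] : IsPGroup p (UU F) := by
  rintro ⟨_, x, rfl⟩
  refine ⟨1, ?_⟩
  apply Subtype.ext
  change uu x ^ p ^ 1 = 1
  rw [pow_one, uu_pow, CharP.cast_eq_zero, zero_mul, uu_zero]

omit [Fintype F] in
theorem mem_center {x : SpecialLinearGroup (Fin 2) F} (hx : x ∈ Subgroup.center (SpecialLinearGroup (Fin 2) F)) :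
    x = 1 ∨ x = -1 := by
  rw [Matrix.SpecialLinearGroup.mem_center_iff] at hx
  obtain ⟨r, hr, h⟩ := hx
  rw [Fintype.card_fin] at hr
  have h1 : r = 1 ∨ r = -1 := by
    have h0 : (r - 1) * (r + 1) = 0 := by linear_combination hr
    rcases mul_eq_zero.1 h0 with h1 | h1
    · left; exact sub_eq_zero.1 h1
    · right; exact eq_neg_of_add_eq_zero_left h1
  have e00 : en x 0 0 = r := by rw [en, ← h]; simp
  have e01 : en x 0 1 = 0 := by rw [en, ← h]; simp
  have e10 : en x 1 0 = 0 := by rw [en, ← h]; simp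
  have e11 : en x 1 1 = r := by rw [en, ← h]; simp
  rcases h1 with rfl | rfl
  · left; apply ext2 <;> simp only [e00, e01, e10, e11, en_one00, en_one01, en_one10, en_one11]
  · right; apply ext2 <;> simp only [e00, e01, e10, e11, en_neg00, en_neg01, en_neg10, en_neg11]

theorem ek_psl2 {S : Type u} [Group S] (p : ℕ) [CharP F p] (h2 : p ≠ 2) (h4 : 4 ≤ Fintype.card F)
    (e : S ≃* Matrix.ProjectiveSpecialLinearGroup (Fin 2) F) : EK p S := by
  intro H V _ _ _ _ _ K N φ π hC hπ hker hcen
  have hp : Fact p.Prime := ⟨CharP.char_is_prime F p⟩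
  have hperf : Group.IsPerfect H := ⟨hC.perf⟩
  have hKc : K ≤ Subgroup.center H := fun k hk =>
    Cfsg.Agent.H487.mem_center_of_commutator_mem_center hperf k fun h => hC.cen (hcen k hk h)
  let σ : H →* Matrix.ProjectiveSpecialLinearGroup (Fin 2) F := e.toMonoidHom.comp π
  have hσs : Function.Surjective σ := e.surjective.comp hπ
  have hσk : σ.ker = K := by
    rw [← hker]
    ext x
    rw [MonoidHom.mem_ker, MonoidHom.mem_ker]
    exact map_eq_one_iff _ e.injective
  have hstem : IsStemExtension σ :=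
    ⟨hσs, by rw [hσk]; exact hKc, by rw [hC.perf]; exact le_top⟩
  have hcard : Nat.card K ∣ 2 := by
    have := card_ker_dvd_two p h2 h4 hstem (by rw [hσk]; exact hC.pK)
    rwa [hσk] at this
  have hNK : N = K := by
    apply Subgroup.eq_of_le_of_card_ge hC.NK
    have h5 : Nat.card K ≤ 2 := Nat.le_of_dvd (by norm_num) hcard
    have h6 : Nat.card N ≠ 1 := fun h => hC.Nne (Subgroup.card_eq_one.1 h)
    have h7 : 0 < Nat.card N := Nat.card_pos
    omega
  let τ : H →* AddMonoid.End V := DistribMulAction.toAddMonoidEnd H V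
  have hτ : ∀ (h : H) (v : V), τ h v = h • v := fun _ _ => rfl
  have hτk : σ.ker ≤ τ.ker := by
    intro x hx
    rw [hσk, ← hNK] at hx
    rw [MonoidHom.mem_ker]
    apply AddMonoidHom.ext
    intro v
    exact (hC.ker x).2 hx v
  let ρP : Matrix.ProjectiveSpecialLinearGroup (Fin 2) F →* AddMonoid.End V :=
    (QuotientGroup.lift σ.ker τ hτk).comp (QuotientGroup.quotientKerEquivOfSurjective σ hσs).symm.toMonoidHom
  have hρP : ∀ h : H, ρP (σ h) = τ h := by
    intro h
    have : (QuotientGroup.quotientKerEquivOfSurjective σ hσs).symm (σ h) = (h : H ⧸ σ.ker) := by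
      rw [MulEquiv.symm_apply_eq]
      rfl
    change QuotientGroup.lift σ.ker τ hτk ((QuotientGroup.quotientKerEquivOfSurjective σ hσs).symm (σ h)) = _
    rw [this]
    rfl
  let ρ : SpecialLinearGroup (Fin 2) F →* AddMonoid.End V :=
    ρP.comp (QuotientGroup.mk' (Subgroup.center (SpecialLinearGroup (Fin 2) F)))
  have hρ : ∀ g : SpecialLinearGroup (Fin 2) F, ∃ h : H, ρ g = τ h ∧ (σ h = QuotientGroup.mk' _ g) := by
    intro g
    obtain ⟨h, hh⟩ := hσs (QuotientGroup.mk' _ g)
    refine ⟨h, ?_, hh⟩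
    change ρP (QuotientGroup.mk' _ g) = _
    rw [← hh, hρP]
  have hρ' : ∀ h : H, ∃ g : SpecialLinearGroup (Fin 2) F, ρ g = τ h := by
    intro h
    obtain ⟨g, hg⟩ := QuotientGroup.mk'_surjective (Subgroup.center (SpecialLinearGroup (Fin 2) F)) (σ h)
    refine ⟨g, ?_⟩
    change ρP (QuotientGroup.mk' _ g) = _
    rw [hg, hρP]
  have hF2 : (2 : F) ≠ 0 := by
    intro h
    have : ((2 : ℕ) : F) = 0 := by exact_mod_cast h
    rw [CharP.cast_eq_zero_iff F p] at this
    exact h2 ((Nat.prime_dvd_prime_iff_eq hp.1 Nat.prime_two).1 this)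
  obtain ⟨x, hx1, hx2, hx⟩ := core ρ hF2 (by
    intro v
    let _ : MulAction (SpecialLinearGroup (Fin 2) F) V :=
      { smul := fun g w => ρ g w
        one_smul := act_one ρ
        mul_smul := act_mul ρ }
    have horb : MulAction.orbit (SpecialLinearGroup (Fin 2) F) v = MulAction.orbit H v := by
      ext w
      constructor
      · rintro ⟨g, rfl⟩
        obtain ⟨h, hh, -⟩ := hρ g
        exact ⟨h, by change h • v = ρ g v; rw [hh]; rfl⟩
      · rintro ⟨h, rfl⟩
        obtain ⟨g, hg⟩ := hρ' h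
        exact ⟨g, by change ρ g v = h • v; rw [hg]; rfl⟩
    have hnd : ¬ p ∣ Nat.card (MulAction.orbit (SpecialLinearGroup (Fin 2) F) v) := by
      rw [horb]
      have := hC.P1 v
      rwa [MulAction.index_stabilizer, ← Nat.card_coe_set_eq] at this
    obtain ⟨⟨w, hw⟩, hfix⟩ := (isPGroup_UU (F := F) p).nonempty_fixed_point_of_prime_not_dvd_card
      (α := MulAction.orbit (SpecialLinearGroup (Fin 2) F) v) hnd
    obtain ⟨g, rfl⟩ := hw
    refine ⟨g⁻¹, fun x => ?_⟩
    have h5 := hfix ⟨uu x, x, rfl⟩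
    have h6 : ρ (uu x) (ρ g v) = ρ g v := congrArg Subtype.val h5
    rw [inv_inv, act_mul, act_mul, h6, ← act_mul, inv_mul_cancel, act_one])
    (by
    intro v hv
    let W : AddSubgroup V :=
      { carrier := {w | ∀ h : H, h • w = w}
        zero_mem' := fun h => smul_zero h
        add_mem' := fun {a b} ha hb h => by rw [smul_add, ha h, hb h]
        neg_mem' := fun {a} ha h => by rw [smul_neg, ha h] }
    have hW := hC.irr W (fun h w hw => by
      intro h'
      have h1 : h • w = w := hw h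
      rw [h1]; exact hw h')
    have hvW : v ∈ W := by
      intro h
      obtain ⟨g, hg⟩ := hρ' h
      have := hv g
      rw [hg] at this
      exact this
    rcases hW with hW | hW
    · rw [hW] at hvW
      exact AddSubgroup.mem_bot.1 hvW
    · exfalso
      apply hC.Kt
      rw [← hNK, Subgroup.eq_top_iff']
      intro h
      rw [← hC.ker h]
      intro w
      have : w ∈ W := by rw [hW]; exact AddSubgroup.mem_top w
      exact this h)
    (by
    intro v
    have h5 : QuotientGroup.mk' (Subgroup.center (SpecialLinearGroup (Fin 2) F)) (-1) = 1 := by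
      rw [QuotientGroup.mk'_apply, QuotientGroup.eq_one_iff, Subgroup.mem_center_iff]
      intro g
      simp
    change ρP (QuotientGroup.mk' _ (-1)) v = v
    rw [h5, map_one]
    rfl)
  obtain ⟨h, hh, hh'⟩ := hρ x
  have h5 : h ∈ K := by
    rw [← hNK, ← hC.ker h]
    intro v
    have := hx v
    rw [hh] at this
    exact this
  rw [← hσk, MonoidHom.mem_ker, hh', QuotientGroup.mk'_apply, QuotientGroup.eq_one_iff] at h5
  rcases mem_center h5 with h6 | h6
  · exact hx1 h6
  · exact hx2 h6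

end Main

end Cfsg.Agent.H395.RIM.EKPsl
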