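import Mathlib

/-!
# `SL 2 F` acting on a group `V` such that every element is fixed by a conjugate of the unipotent group
(task 6184 of S4816, helper395)
-/

set_option autoImplicit false
set_option linter.unusedSimpArgs false
set_option linter.unusedTactic false
set_option linter.unreachableTactic false

namespace Cfsg.Agent.H395.RIM.SLFix

open Matrix
open scoped commutatorElement

universe u v

variable {F : Type v} [Field F]

/-- upper unipotent -/
def uu (x : F) : SpecialLinearGroup (Fin 2) F := ⟨!![1, x; 0, 1], by simp [Matrix.det_fin_two]⟩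

/-- lower unipotent -/
def ll (x : F) : SpecialLinearGroup (Fin 2) F := ⟨!![1, 0; x, 1], by simp [Matrix.det_fin_two]⟩

/-- the Weyl element -/
def ww : SpecialLinearGroup (Fin 2) F := ⟨!![0, 1; -1, 0], by simp [Matrix.det_fin_two]⟩

/-- entries -/
def en (g : SpecialLinearGroup (Fin 2) F) (i j : Fin 2) : F := (g : Matrix (Fin 2) (Fin 2) F) i j

theorem ext2 {g h : SpecialLinearGroup (Fin 2) F} (h00 : en g 0 0 = en h 0 0) (h01 : en g 0 1 = en h 0 1)
    (h10 : en g 1 0 = en h 1 0) (h11 : en g 1 1 = en h 1 1) : g = h := by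
  apply Subtype.ext
  ext i j
  fin_cases i <;> fin_cases j
  · exact h00
  · exact h01
  · exact h10
  · exact h11

theorem en_mul (g h : SpecialLinearGroup (Fin 2) F) (i j : Fin 2) :
    en (g * h) i j = en g i 0 * en h 0 j + en g i 1 * en h 1 j := by
  simp [en, Matrix.mul_apply, Fin.sum_univ_two]

theorem en_one00 : en (1 : SpecialLinearGroup (Fin 2) F) 0 0 = 1 := by simp [en]
theorem en_one01 : en (1 : SpecialLinearGroup (Fin 2) F) 0 1 = 0 := by simp [en]
theorem en_one10 : en (1 : SpecialLinearGroup (Fin 2) F) 1 0 = 0 := by simp [en]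
theorem en_one11 : en (1 : SpecialLinearGroup (Fin 2) F) 1 1 = 1 := by simp [en]
theorem en_neg00 : en (-1 : SpecialLinearGroup (Fin 2) F) 0 0 = -1 := by simp [en]
theorem en_neg01 : en (-1 : SpecialLinearGroup (Fin 2) F) 0 1 = 0 := by simp [en]
theorem en_neg10 : en (-1 : SpecialLinearGroup (Fin 2) F) 1 0 = 0 := by simp [en]
theorem en_neg11 : en (-1 : SpecialLinearGroup (Fin 2) F) 1 1 = -1 := by simp [en]
theorem en_uu00 (x : F) : en (uu x) 0 0 = 1 := rfl
theorem en_uu01 (x : F) : en (uu x) 0 1 = x := rfl
theorem en_uu10 (x : F) : en (uu x) 1 0 = 0 := rfl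
theorem en_uu11 (x : F) : en (uu x) 1 1 = 1 := rfl
theorem en_ll00 (x : F) : en (ll x) 0 0 = 1 := rfl
theorem en_ll01 (x : F) : en (ll x) 0 1 = 0 := rfl
theorem en_ll10 (x : F) : en (ll x) 1 0 = x := rfl
theorem en_ll11 (x : F) : en (ll x) 1 1 = 1 := rfl
theorem en_ww00 : en (ww : SpecialLinearGroup (Fin 2) F) 0 0 = 0 := rfl
theorem en_ww01 : en (ww : SpecialLinearGroup (Fin 2) F) 0 1 = 1 := rfl
theorem en_ww10 : en (ww : SpecialLinearGroup (Fin 2) F) 1 0 = -1 := rfl
theorem en_ww11 : en (ww : SpecialLinearGroup (Fin 2) F) 1 1 = 0 := rfl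
theorem en_inv00 (g : SpecialLinearGroup (Fin 2) F) : en (g⁻¹) 0 0 = en g 1 1 := by
  simp [en, SpecialLinearGroup.coe_inv, Matrix.adjugate_fin_two]
theorem en_inv01 (g : SpecialLinearGroup (Fin 2) F) : en (g⁻¹) 0 1 = - en g 0 1 := by
  simp [en, SpecialLinearGroup.coe_inv, Matrix.adjugate_fin_two]
theorem en_inv10 (g : SpecialLinearGroup (Fin 2) F) : en (g⁻¹) 1 0 = - en g 1 0 := by
  simp [en, SpecialLinearGroup.coe_inv, Matrix.adjugate_fin_two]
theorem en_inv11 (g : SpecialLinearGroup (Fin 2) F) : en (g⁻¹) 1 1 = en g 0 0 := by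
  simp [en, SpecialLinearGroup.coe_inv, Matrix.adjugate_fin_two]

theorem det_eq (g : SpecialLinearGroup (Fin 2) F) : en g 0 0 * en g 1 1 - en g 0 1 * en g 1 0 = 1 := by
  have := g.2
  rwa [Matrix.det_fin_two] at this

theorem uu_add (x y : F) : uu (x + y) = uu x * uu y := by
  apply ext2 <;> simp only [en_mul, en_one00, en_one01, en_one10, en_one11, en_neg00, en_neg01, en_neg10, en_neg11,
    en_uu00, en_uu01, en_uu10, en_uu11, en_ll00, en_ll01, en_ll10, en_ll11, en_ww00, en_ww01, en_ww10, en_ww11,
    en_inv00, en_inv01, en_inv10, en_inv11] <;> ring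

theorem uu_zero : uu (0 : F) = 1 := by
  apply ext2 <;> simp only [en_mul, en_one00, en_one01, en_one10, en_one11, en_neg00, en_neg01, en_neg10, en_neg11,
    en_uu00, en_uu01, en_uu10, en_uu11, en_ll00, en_ll01, en_ll10, en_ll11, en_ww00, en_ww01, en_ww10, en_ww11,
    en_inv00, en_inv01, en_inv10, en_inv11]

theorem uu_neg (x : F) : (uu x)⁻¹ = uu (-x) := by
  rw [inv_eq_iff_mul_eq_one, ← uu_add, add_neg_cancel, uu_zero]

/-- an element with nonzero lower left entry is a product -/
theorem eq_mul {g : SpecialLinearGroup (Fin 2) F} (hc : en g 1 0 ≠ 0) :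
    g = uu ((en g 0 0 - 1) / en g 1 0) * ll (en g 1 0) * uu ((en g 1 1 - 1) / en g 1 0) := by
  have hd := det_eq g
  apply ext2
  · simp only [en_mul, en_one00, en_one01, en_one10, en_one11, en_neg00, en_neg01, en_neg10, en_neg11,
    en_uu00, en_uu01, en_uu10, en_uu11, en_ll00, en_ll01, en_ll10, en_ll11, en_ww00, en_ww01, en_ww10, en_ww11,
    en_inv00, en_inv01, en_inv10, en_inv11]; field_simp; ring
  · simp only [en_mul, en_one00, en_one01, en_one10, en_one11, en_neg00, en_neg01, en_neg10, en_neg11,
    en_uu00, en_uu01, en_uu10, en_uu11, en_ll00, en_ll01, en_ll10, en_ll11, en_ww00, en_ww01, en_ww10, en_ww11,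
    en_inv00, en_inv01, en_inv10, en_inv11]; field_simp; linear_combination (-1 : F) * hd
  · simp only [en_mul, en_one00, en_one01, en_one10, en_one11, en_neg00, en_neg01, en_neg10, en_neg11,
    en_uu00, en_uu01, en_uu10, en_uu11, en_ll00, en_ll01, en_ll10, en_ll11, en_ww00, en_ww01, en_ww10, en_ww11,
    en_inv00, en_inv01, en_inv10, en_inv11]; ring
  · simp only [en_mul, en_one00, en_one01, en_one10, en_one11, en_neg00, en_neg01, en_neg10, en_neg11,
    en_uu00, en_uu01, en_uu10, en_uu11, en_ll00, en_ll01, en_ll10, en_ll11, en_ww00, en_ww01, en_ww10, en_ww11,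
    en_inv00, en_inv01, en_inv10, en_inv11]; field_simp; ring

/-- conjugates of the unipotent elements -/
theorem ll_eq {x : SpecialLinearGroup (Fin 2) F} (hc : en x 1 0 ≠ 0) (y : F) :
    ll y = (uu (en x 0 0 / en x 1 0))⁻¹ * (x * uu (-y / (en x 1 0) ^ 2) * x⁻¹) * uu (en x 0 0 / en x 1 0) := by
  have hd := det_eq x
  apply ext2
  · simp only [en_mul, en_one00, en_one01, en_one10, en_one11, en_neg00, en_neg01, en_neg10, en_neg11,
    en_uu00, en_uu01, en_uu10, en_uu11, en_ll00, en_ll01, en_ll10, en_ll11, en_ww00, en_ww01, en_ww10, en_ww11,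
    en_inv00, en_inv01, en_inv10, en_inv11]; field_simp; linear_combination (-(en x 1 0) ^ 2) * hd
  · simp only [en_mul, en_one00, en_one01, en_one10, en_one11, en_neg00, en_neg01, en_neg10, en_neg11,
    en_uu00, en_uu01, en_uu10, en_uu11, en_ll00, en_ll01, en_ll10, en_ll11, en_ww00, en_ww01, en_ww10, en_ww11,
    en_inv00, en_inv01, en_inv10, en_inv11]; field_simp; ring
  · simp only [en_mul, en_one00, en_one01, en_one10, en_one11, en_neg00, en_neg01, en_neg10, en_neg11,
    en_uu00, en_uu01, en_uu10, en_uu11, en_ll00, en_ll01, en_ll10, en_ll11, en_ww00, en_ww01, en_ww10, en_ww11,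
    en_inv00, en_inv01, en_inv10, en_inv11]; field_simp; ring
  · simp only [en_mul, en_one00, en_one01, en_one10, en_one11, en_neg00, en_neg01, en_neg10, en_neg11,
    en_uu00, en_uu01, en_uu10, en_uu11, en_ll00, en_ll01, en_ll10, en_ll11, en_ww00, en_ww01, en_ww10, en_ww11,
    en_inv00, en_inv01, en_inv10, en_inv11]; field_simp; linear_combination (-(en x 1 0) ^ 2) * hd

variable {V : Type u} [AddCommGroup V] (ρ : SpecialLinearGroup (Fin 2) F →* AddMonoid.End V)

theorem act_mul (g h : SpecialLinearGroup (Fin 2) F) (v : V) : ρ (g * h) v = ρ g (ρ h v) := by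
  rw [map_mul]; rfl

theorem act_one (v : V) : ρ 1 v = v := by
  rw [map_one]; rfl

theorem act_inv {g : SpecialLinearGroup (Fin 2) F} {v : V} (h : ρ g v = v) : ρ g⁻¹ v = v := by
  have h1 : ρ g⁻¹ (ρ g v) = v := by rw [← act_mul, inv_mul_cancel, act_one]
  rwa [h] at h1

theorem act_inj (g : SpecialLinearGroup (Fin 2) F) {v w : V} (h : ρ g v = ρ g w) : v = w := by
  have h1 := congrArg (ρ g⁻¹) h
  rwa [← act_mul, ← act_mul, inv_mul_cancel, act_one, act_one] at h1

/-- the upper and lower unipotent elements generate -/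
theorem fix_all {v : V} (hu : ∀ x, ρ (uu x) v = v) (hl : ∀ x, ρ (ll x) v = v) (g : SpecialLinearGroup (Fin 2) F) :
    ρ g v = v := by
  have key : ∀ g : SpecialLinearGroup (Fin 2) F, en g 1 0 ≠ 0 → ρ g v = v := by
    intro g hg
    rw [eq_mul hg, act_mul, act_mul, hu, hl, hu]
  by_cases hc : en g 1 0 = 0
  · have hd := det_eq g
    have ha : en g 0 0 ≠ 0 := by
      intro h
      rw [h, hc] at hd
      simp at hd
    have h1 : en (ll 1 * g) 1 0 ≠ 0 := by
      simp only [en_mul, en_one00, en_one01, en_one10, en_one11, en_neg00, en_neg01, en_neg10, en_neg11,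
    en_uu00, en_uu01, en_uu10, en_uu11, en_ll00, en_ll01, en_ll10, en_ll11, en_ww00, en_ww01, en_ww10, en_ww11,
    en_inv00, en_inv01, en_inv10, en_inv11]
      rw [hc]; simpa using ha
    have h2 := key _ h1
    rw [act_mul] at h2
    exact act_inj ρ (ll 1) (h2.trans (hl 1).symm)
  · exact key g hc

/-- an element fixed by the unipotent group and another conjugate is fixed by all -/
theorem fix_of_conj {v : V} {x : SpecialLinearGroup (Fin 2) F} (hc : en x 1 0 ≠ 0) (hu : ∀ y, ρ (uu y) v = v)
    (hx : ∀ y, ρ (x * uu y * x⁻¹) v = v) (g : SpecialLinearGroup (Fin 2) F) : ρ g v = v := by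
  refine fix_all ρ hu (fun y => ?_) g
  rw [ll_eq hc y, act_mul, act_mul, hu, hx, act_inv ρ (hu _)]

/-- normalizing element: if `t` fixes `v` and `g U g⁻¹` fixes `v` then `g⁻¹ t g` is upper triangular, unless `v` is
fixed by everything -/
theorem fix_or {v : V} {t g : SpecialLinearGroup (Fin 2) F} (ht : ρ t v = v)
    (hg : ∀ y, ρ (g * uu y * g⁻¹) v = v) (hc : en (g⁻¹ * t * g) 1 0 ≠ 0) (k : SpecialLinearGroup (Fin 2) F) :
    ρ k v = v := by
  have h1 : ∀ y, ρ (uu y) (ρ g⁻¹ v) = ρ g⁻¹ v := by
    intro y
    have := congrArg (ρ g⁻¹) (hg y)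
    rw [← act_mul] at this
    rw [← act_mul]
    have e : g⁻¹ * (g * uu y * g⁻¹) = uu y * g⁻¹ := by group
    rwa [e] at this
  have h2 : ∀ y, ρ ((g⁻¹ * t * g) * uu y * (g⁻¹ * t * g)⁻¹) (ρ g⁻¹ v) = ρ g⁻¹ v := by
    intro y
    rw [← act_mul]
    have e : (g⁻¹ * t * g) * uu y * (g⁻¹ * t * g)⁻¹ * g⁻¹ = g⁻¹ * (t * ((g * uu y * g⁻¹) * t⁻¹)) := by group
    rw [e, act_mul, act_mul, act_mul, act_inv ρ ht, hg, ht]
  have h3 := fix_of_conj ρ hc h1 h2
  have h4 := h3 (g⁻¹ * k * g)
  rw [← act_mul] at h4
  have e : g⁻¹ * k * g * g⁻¹ = g⁻¹ * k := by group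
  rw [e, act_mul] at h4
  exact act_inj ρ _ h4

theorem core (h2 : (2 : F) ≠ 0)
    (hs : ∀ v : V, ∃ g : SpecialLinearGroup (Fin 2) F, ∀ x, ρ (g * uu x * g⁻¹) v = v)
    (h0 : ∀ v : V, (∀ g, ρ g v = v) → v = 0) (hn : ∀ v : V, ρ (-1) v = v) :
    ∃ x : SpecialLinearGroup (Fin 2) F, x ≠ 1 ∧ x ≠ -1 ∧ ∀ v : V, ρ x v = v := by
  have fin : ∀ t : SpecialLinearGroup (Fin 2) F, t * t = -1 → (∀ v : V, ρ t v = v → v = 0) →
      ⁅t, uu (1 : F)⁆ ≠ 1 → ⁅t, uu (1 : F)⁆ ≠ -1 →
      ∃ x : SpecialLinearGroup (Fin 2) F, x ≠ 1 ∧ x ≠ -1 ∧ ∀ v : V, ρ x v = v := by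
    intro t ht hf h1 h1'
    have hneg : ∀ v : V, ρ t v = -v := by
      intro v
      have := hf (v + ρ t v) (by rw [map_add, ← act_mul, ht, hn, add_comm])
      exact eq_neg_of_add_eq_zero_right this
    have hneg' : ∀ v : V, ρ t⁻¹ v = -v := by
      intro v
      have h3 := hneg (ρ t⁻¹ v)
      rw [← act_mul, mul_inv_cancel, act_one] at h3
      rw [h3, neg_neg]
      rw [← h3]
    refine ⟨⁅t, uu (1 : F)⁆, h1, h1', fun v => ?_⟩
    rw [commutatorElement_def, act_mul, act_mul, act_mul, hneg', map_neg, hneg, neg_neg, ← act_mul,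
      mul_inv_cancel, act_one]
  by_cases hi : IsSquare (-1 : F)
  · obtain ⟨i, hi⟩ := hi
    have hi0 : i ≠ 0 := by
      rintro rfl
      simp at hi
    let t : SpecialLinearGroup (Fin 2) F := ⟨!![i, 0; 0, -i], by simp [Matrix.det_fin_two, ← hi]⟩
    have t00 : en t 0 0 = i := rfl
    have t01 : en t 0 1 = 0 := rfl
    have t10 : en t 1 0 = 0 := rfl
    have t11 : en t 1 1 = -i := rfl
    have ht : t * t = -1 := by
      apply ext2 <;> simp only [en_mul, en_one00, en_one01, en_one10, en_one11, en_neg00, en_neg01, en_neg10, en_neg11,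
    en_uu00, en_uu01, en_uu10, en_uu11, en_ll00, en_ll01, en_ll10, en_ll11, en_ww00, en_ww01, en_ww10, en_ww11,
    en_inv00, en_inv01, en_inv10, en_inv11] <;> simp only [t00, t01, t10, t11] <;> first | ring1 | linear_combination (-1 : F) * hi
    have hw : ww * t * ww⁻¹ = -1 * t := by
      apply ext2 <;> simp only [en_mul, en_one00, en_one01, en_one10, en_one11, en_neg00, en_neg01, en_neg10, en_neg11,
    en_uu00, en_uu01, en_uu10, en_uu11, en_ll00, en_ll01, en_ll10, en_ll11, en_ww00, en_ww01, en_ww10, en_ww11,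
    en_inv00, en_inv01, en_inv10, en_inv11] <;> simp only [t00, t01, t10, t11] <;> ring
    -- both subgroups
    have hU : ∀ v : V, ρ t v = v → (∀ x, ρ (uu x) v = v) ∨ (∀ x, ρ (ww * uu x * ww⁻¹) v = v) := by
      intro v hv
      obtain ⟨g, hg⟩ := hs v
      by_cases hc : en (g⁻¹ * t * g) 1 0 = 0
      · have hc' : en g 0 0 = 0 ∨ en g 1 0 = 0 := by
          simp only [en_mul, en_one00, en_one01, en_one10, en_one11, en_neg00, en_neg01, en_neg10, en_neg11,
    en_uu00, en_uu01, en_uu10, en_uu11, en_ll00, en_ll01, en_ll10, en_ll11, en_ww00, en_ww01, en_ww10, en_ww11,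
    en_inv00, en_inv01, en_inv10, en_inv11] at hc
          simp only [t00, t01, t10, t11] at hc
          have h3 : 2 * i * en g 0 0 * en g 1 0 = 0 := by linear_combination (-1 : F) * hc
          have h4 : (2 : F) * i ≠ 0 := mul_ne_zero h2 hi0
          rcases mul_eq_zero.1 h3 with h5 | h5
          · rcases mul_eq_zero.1 h5 with h6 | h6
            · exact absurd h6 h4
            · exact Or.inl h6
          · exact Or.inr h5
        have hd := det_eq g
        rcases hc' with hc' | hc'
        · right
          intro x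
          -- g = ww * b
          rw [hc', zero_mul, zero_sub] at hd
          have hne : en g 1 0 ≠ 0 := by
            intro h; rw [h] at hd; simp at hd
          have e : ww * uu x * ww⁻¹ = g * uu (x / (en g 1 0) ^ 2) * g⁻¹ := by
            apply ext2
            · simp only [en_mul, en_one00, en_one01, en_one10, en_one11, en_neg00, en_neg01, en_neg10, en_neg11,
    en_uu00, en_uu01, en_uu10, en_uu11, en_ll00, en_ll01, en_ll10, en_ll11, en_ww00, en_ww01, en_ww10, en_ww11,
    en_inv00, en_inv01, en_inv10, en_inv11]; try simp only [hc']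
              field_simp
              first | ring1 | linear_combination (-(en g 1 0)) * hd | linear_combination (-(en g 0 0)) * hd
            · simp only [en_mul, en_one00, en_one01, en_one10, en_one11, en_neg00, en_neg01, en_neg10, en_neg11,
    en_uu00, en_uu01, en_uu10, en_uu11, en_ll00, en_ll01, en_ll10, en_ll11, en_ww00, en_ww01, en_ww10, en_ww11,
    en_inv00, en_inv01, en_inv10, en_inv11]; try simp only [hc']
              field_simp
              first | ring1 | linear_combination (-(en g 1 0)) * hd | linear_combination (-(en g 0 0)) * hd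
            · simp only [en_mul, en_one00, en_one01, en_one10, en_one11, en_neg00, en_neg01, en_neg10, en_neg11,
    en_uu00, en_uu01, en_uu10, en_uu11, en_ll00, en_ll01, en_ll10, en_ll11, en_ww00, en_ww01, en_ww10, en_ww11,
    en_inv00, en_inv01, en_inv10, en_inv11]; try simp only [hc']
              field_simp
              first | ring1 | linear_combination (-(en g 1 0)) * hd | linear_combination (-(en g 0 0)) * hd
            · simp only [en_mul, en_one00, en_one01, en_one10, en_one11, en_neg00, en_neg01, en_neg10, en_neg11,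
    en_uu00, en_uu01, en_uu10, en_uu11, en_ll00, en_ll01, en_ll10, en_ll11, en_ww00, en_ww01, en_ww10, en_ww11,
    en_inv00, en_inv01, en_inv10, en_inv11]; try simp only [hc']
              field_simp
              first | ring1 | linear_combination (-(en g 1 0)) * hd | linear_combination (-(en g 0 0)) * hd
          rw [e]; exact hg _
        · left
          intro x
          rw [hc', mul_zero, sub_zero] at hd
          have hne : en g 0 0 ≠ 0 := by
            intro h; rw [h] at hd; simp at hd
          have e : uu x = g * uu (x / (en g 0 0) ^ 2) * g⁻¹ := by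
            apply ext2
            · simp only [en_mul, en_one00, en_one01, en_one10, en_one11, en_neg00, en_neg01, en_neg10, en_neg11,
    en_uu00, en_uu01, en_uu10, en_uu11, en_ll00, en_ll01, en_ll10, en_ll11, en_ww00, en_ww01, en_ww10, en_ww11,
    en_inv00, en_inv01, en_inv10, en_inv11]; try simp only [hc']
              field_simp
              first | ring1 | linear_combination (-(en g 1 0)) * hd | linear_combination (-(en g 0 0)) * hd
            · simp only [en_mul, en_one00, en_one01, en_one10, en_one11, en_neg00, en_neg01, en_neg10, en_neg11,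
    en_uu00, en_uu01, en_uu10, en_uu11, en_ll00, en_ll01, en_ll10, en_ll11, en_ww00, en_ww01, en_ww10, en_ww11,
    en_inv00, en_inv01, en_inv10, en_inv11]; try simp only [hc']
              field_simp
              first | ring1 | linear_combination (-(en g 1 0)) * hd | linear_combination (-(en g 0 0)) * hd
            · simp only [en_mul, en_one00, en_one01, en_one10, en_one11, en_neg00, en_neg01, en_neg10, en_neg11,
    en_uu00, en_uu01, en_uu10, en_uu11, en_ll00, en_ll01, en_ll10, en_ll11, en_ww00, en_ww01, en_ww10, en_ww11,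
    en_inv00, en_inv01, en_inv10, en_inv11]; try simp only [hc']
              field_simp
              first | ring1 | linear_combination (-(en g 1 0)) * hd | linear_combination (-(en g 0 0)) * hd
            · simp only [en_mul, en_one00, en_one01, en_one10, en_one11, en_neg00, en_neg01, en_neg10, en_neg11,
    en_uu00, en_uu01, en_uu10, en_uu11, en_ll00, en_ll01, en_ll10, en_ll11, en_ww00, en_ww01, en_ww10, en_ww11,
    en_inv00, en_inv01, en_inv10, en_inv11]; try simp only [hc']
              field_simp
              first | ring1 | linear_combination (-(en g 1 0)) * hd | linear_combination (-(en g 0 0)) * hd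
          rw [e]; exact hg _
      · have h3 := h0 v (fix_or ρ hv hg hc)
        left; intro x
        rw [h3, map_zero]
    have hone : ∀ v : V, ρ t v = v → (∀ x, ρ (uu x) v = v) → v = 0 := by
      intro v hv hv'
      have h1 : ρ t (ρ ww v) = ρ ww v := by
        have e : t * ww = -1 * (ww * t) := by
          rw [mul_inv_eq_iff_eq_mul] at hw
          rw [hw]
          rw [← mul_assoc, ← mul_assoc]
          simp
        rw [← act_mul, e, act_mul, act_mul, hv, hn]
      have h2' : ∀ x, ρ (ww * uu x * ww⁻¹) (ρ ww v) = ρ ww v := by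
        intro x
        rw [← act_mul, inv_mul_cancel_right, act_mul, hv']
      have hc : en (ww : SpecialLinearGroup (Fin 2) F) 1 0 ≠ 0 := by
        rw [en_ww10]; simp
      rcases hU (v + ρ ww v) (by rw [map_add, hv, h1]) with h3 | h3
      · have h4 : ∀ x, ρ (uu x) (ρ ww v) = ρ ww v := by
          intro x
          have := h3 x
          rw [map_add, hv'] at this
          exact add_left_cancel this
        have h5 := h0 _ (fix_of_conj ρ hc h4 h2')
        exact act_inj ρ ww (by rw [h5, map_zero])
      · have h4 : ∀ x, ρ (ww * uu x * ww⁻¹) v = v := by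
          intro x
          have := h3 x
          rw [map_add, h2'] at this
          exact add_right_cancel this
        exact h0 _ (fix_of_conj ρ hc hv' h4)
    refine fin t ht (fun v hv => ?_) ?_ ?_
    · rcases hU v hv with h3 | h3
      · exact hone v hv h3
      · have h1 : ρ t (ρ ww⁻¹ v) = ρ ww⁻¹ v := by
          have e : t * ww⁻¹ = -1 * (ww⁻¹ * t) := by
            have : ww * t = -1 * t * ww := by rw [mul_inv_eq_iff_eq_mul] at hw; exact hw
            have h4 : t = ww⁻¹ * (-1 * t * ww) := by rw [← this]; group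
            nth_rewrite 1 [h4]
            simp [mul_assoc]
          rw [← act_mul, e, act_mul, act_mul, hv, hn]
        have h2' : ∀ x, ρ (uu x) (ρ ww⁻¹ v) = ρ ww⁻¹ v := by
          intro x
          have := congrArg (ρ ww⁻¹) (h3 x)
          rw [← act_mul] at this
          rw [← act_mul]
          have e : ww⁻¹ * (ww * uu x * ww⁻¹) = uu x * ww⁻¹ := by group
          rwa [e] at this
        have h5 := hone _ h1 h2'
        exact act_inj ρ ww⁻¹ (by rw [h5, map_zero])
    · intro h
      have := congrArg (fun g : SpecialLinearGroup (Fin 2) F => en g 0 1) h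
      simp only [commutatorElement_def] at this
      simp only [en_mul, en_one00, en_one01, en_one10, en_one11, en_neg00, en_neg01, en_neg10, en_neg11,
    en_uu00, en_uu01, en_uu10, en_uu11, en_ll00, en_ll01, en_ll10, en_ll11, en_ww00, en_ww01, en_ww10, en_ww11,
    en_inv00, en_inv01, en_inv10, en_inv11] at this
      simp only [t00, t01, t10, t11] at this
      apply h2
      have h3 : i * i = -1 := hi.symm
      linear_combination (-1 : F) * this + 2 * h3
    · intro h
      have := congrArg (fun g : SpecialLinearGroup (Fin 2) F => en g 0 0) h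
      simp only [commutatorElement_def] at this
      simp only [en_mul, en_one00, en_one01, en_one10, en_one11, en_neg00, en_neg01, en_neg10, en_neg11,
    en_uu00, en_uu01, en_uu10, en_uu11, en_ll00, en_ll01, en_ll10, en_ll11, en_ww00, en_ww01, en_ww10, en_ww11,
    en_inv00, en_inv01, en_inv10, en_inv11] at this
      simp only [t00, t01, t10, t11] at this
      apply h2
      have h3 : i * i = -1 := hi.symm
      linear_combination this + h3
  · refine fin ww ?_ (fun v hv => ?_) ?_ ?_
    · apply ext2 <;> simp only [en_mul, en_one00, en_one01, en_one10, en_one11, en_neg00, en_neg01, en_neg10, en_neg11,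
    en_uu00, en_uu01, en_uu10, en_uu11, en_ll00, en_ll01, en_ll10, en_ll11, en_ww00, en_ww01, en_ww10, en_ww11,
    en_inv00, en_inv01, en_inv10, en_inv11] <;> ring
    · obtain ⟨g, hg⟩ := hs v
      apply h0 v
      apply fix_or ρ hv hg
      intro hc
      simp only [en_mul, en_one00, en_one01, en_one10, en_one11, en_neg00, en_neg01, en_neg10, en_neg11,
    en_uu00, en_uu01, en_uu10, en_uu11, en_ll00, en_ll01, en_ll10, en_ll11, en_ww00, en_ww01, en_ww10, en_ww11,
    en_inv00, en_inv01, en_inv10, en_inv11] at hc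
      have hd := det_eq g
      have h3 : en g 0 0 ^ 2 + en g 1 0 ^ 2 = 0 := by linear_combination (-1 : F) * hc
      by_cases h4 : en g 1 0 = 0
      · have h5 : en g 0 0 = 0 := by
          rw [h4] at h3
          simpa using h3
        rw [h4, h5] at hd
        simp at hd
      · apply hi
        refine ⟨en g 0 0 / en g 1 0, ?_⟩
        field_simp
        linear_combination (-1 : F) * h3
    · intro h
      have := congrArg (fun g : SpecialLinearGroup (Fin 2) F => en g 0 1) h
      simp only [commutatorElement_def] at this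
      simp only [en_mul, en_one00, en_one01, en_one10, en_one11, en_neg00, en_neg01, en_neg10, en_neg11,
    en_uu00, en_uu01, en_uu10, en_uu11, en_ll00, en_ll01, en_ll10, en_ll11, en_ww00, en_ww01, en_ww10, en_ww11,
    en_inv00, en_inv01, en_inv10, en_inv11] at this
      norm_num at this
    · intro h
      have := congrArg (fun g : SpecialLinearGroup (Fin 2) F => en g 0 1) h
      simp only [commutatorElement_def] at this
      simp only [en_mul, en_one00, en_one01, en_one10, en_one11, en_neg00, en_neg01, en_neg10, en_neg11,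
    en_uu00, en_uu01, en_uu10, en_uu11, en_ll00, en_ll01, en_ll10, en_ll11, en_ww00, en_ww01, en_ww10, en_ww11,
    en_inv00, en_inv01, en_inv10, en_inv11] at this
      norm_num at this

end Cfsg.Agent.H395.RIM.SLFix
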